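import Cfsg.Agent.Lib.Bd.TwoC

/-!
# The case `|Z ∩ G_y| = 2` with a unique involution on two points does not occur
-/

set_option autoImplicit false

namespace Cfsg.Agent.BdR

open MulAction Cfsg.Agent.AIC Cfsg.Agent.Bd Cfsg.Agent.Bd.St

variable {G Ω : Type*} [Group G] [MulAction G Ω] [Finite G] [Finite Ω] {q Q : ℕ}
  (S : St G Ω q Q)

/-- two points are fixed by only one involution of the class -/
def Uq : Prop := ∀ u ∈ S.D, ∀ v ∈ S.D, ∀ x y : Ω, x ≠ y → u • x = x → u • y = y → v • x = x →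
  v • y = y → u = v

theorem uq_of {x y : Ω} (hxy : x ≠ y) (hm : (S.IK x y).ncard = 1) : Uq S := by
  rintro u ⟨a, hu⟩ v ⟨b, hv⟩ x' y' hxy' h1 h2 h3 h4
  rw [S.ncard_IK hxy hxy'] at hm
  obtain ⟨c, hc⟩ := Set.ncard_eq_one.1 hm
  have a1 : u ∈ S.IK x' y' := ⟨S.closedI hu h1, h2⟩
  have a2 : v ∈ S.IK x' y' := ⟨S.closedI hv h3, h4⟩
  rw [hc] at a1 a2
  exact a1.trans a2.symm

omit [Finite G] [Finite Ω] in
theorem D_conj (g : G) {u : G} (hu : u ∈ S.D) : g * u * g⁻¹ ∈ S.D :=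
  let ⟨_, h⟩ := hu; ⟨_, S.conjI g h⟩

theorem count2 (h : S.Two) (hU : Uq S) {x : Ω} {t : G} (ht : t ∈ I (S.N x)) :
    (F Ω t).ncard * (q - 2) * ((F Ω t).ncard - 1) = Nat.card Ω - (F Ω t).ncard := by
  rw [← Set.ncard_univ, ← Set.ncard_sdiff (Set.subset_univ (F Ω t)) (Set.toFinite _),
    ← mul_one (Set.univ \ F Ω t).ncard,
    ← ncard_eq_fibers (X := {r : Ω × G | t • r.1 = r.1 ∧ r.2 ∈ S.TT t r.1}) (Set.toFinite _)
      Prod.fst (fun r hr => hr.1) (fun w hw => ?_) (Set.toFinite _)]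
  swap
  · rw [← S.ncard_TT (S.closedI ht hw), ← Set.ncard_image_of_injective (S.TT t w)
      (Prod.mk_right_injective w)]
    congr 1; ext ⟨p, a⟩
    exact ⟨fun ⟨⟨_, h1⟩, h2⟩ => ⟨a, h2 ▸ h1, by rw [← h2]⟩,
      by rintro ⟨a, h1, ⟨⟩⟩; exact ⟨⟨hw, h1⟩, rfl⟩⟩
  refine double_count (Set.toFinite _) (Set.toFinite _) (fun r p => r.2 • p = p) ?_ ?_
  · rintro ⟨w, z⟩ ⟨hw, hz⟩
    have hI := S.closedI ht hw
    rw [S.ncard_F ht (S.TT_I hI hz), ← Set.ncard_sdiff_singleton_of_mem (a := w)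
      (show w ∈ F Ω z from S.fixZ hI hz.1)]
    congr 1; ext p
    exact ⟨fun ⟨⟨_, h2⟩, h3⟩ => ⟨h3, fun e => h2 (e ▸ hw)⟩,
      fun ⟨h1, h2⟩ => ⟨⟨trivial, fun e => h2 (Two.uniq S h hI hz e h1)⟩, h1⟩⟩
  · rintro p ⟨-, hp⟩
    have hp' : p ≠ t • p := fun e => hp e.symm
    obtain ⟨u, hu, e⟩ := S.even p (t • p) hp'
    have e1 := S.fixI hu
    have c : Commute u t := by
      have := hU _ (D_conj S t ⟨_, hu⟩) u ⟨_, hu⟩ p (t • p) hp' (by
        rw [conj_fix', inv_eq_of_mul_eq_one_right ht.2.2]; exact e) (conj_fix.2 e1) e1 e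
      exact (commute_of_conj_eq this).symm
    obtain ⟨w, hw, hu'⟩ := Two.perp S h ht hu c (by rintro rfl; exact hp e1)
    refine Set.ncard_eq_one.2 ⟨(w, u), Set.eq_singleton_iff_unique_mem.2 ⟨⟨⟨hw, hu'⟩, e1⟩, ?_⟩⟩
    rintro ⟨w', u'⟩ ⟨⟨h1, h2⟩, h3⟩
    have hI := S.closedI ht h1
    obtain rfl : u' = u := hU _ ⟨_, S.TT_I hI h2⟩ _ ⟨_, hu⟩ p (t • p) hp' h3
      (comm_fix (S.TT_comm hI h2).symm h3) e1 e
    rw [Two.uniq S h hI h2 hw (S.fixZ (S.closedI ht hw) hu'.1)]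

theorem params (h : S.Two) (hq : q = 4 ∨ q = 8) (hQ : Q = q) {x y : Ω} (hxy : x ≠ y)
    (hm : (S.IK x y).ncard = 1) : q = 4 ∧ Nat.card Ω = 91 ∧ S.D.ncard = 195 ∧
      ∀ t ∈ S.D, (F Ω t).ncard = 7 := by
  obtain ⟨t, ht, e⟩ := S.even x y hxy
  have c1 := count2 S h (uq_of S hxy hm) ht
  have c2 := S.count_IK hxy ht
  have c3 := S.card_D ht
  have c4 : 1 < (F Ω t).ncard :=
    (Set.one_lt_ncard (Set.toFinite _)).2 ⟨x, S.fixI ht, y, e, hxy⟩
  have c5 : (F Ω t).ncard ≤ Nat.card Ω := by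
    rw [← Set.ncard_univ]; exact Set.ncard_le_ncard (Set.subset_univ _) (Set.toFinite _)
  rw [hm] at c2
  obtain ⟨d, hd⟩ : ∃ d, S.D.ncard = d := ⟨_, rfl⟩
  rw [hd] at c3 ⊢
  rw [hQ] at c2 c3
  obtain ⟨k, hk⟩ : ∃ k, (F Ω t).ncard = k + 2 := ⟨(F Ω t).ncard - 2, by omega⟩
  obtain ⟨v, hv⟩ : ∃ v, Nat.card Ω = v + (k + 2) := ⟨Nat.card Ω - (k + 2), by omega⟩
  rw [hk, hv] at c1 c2 c3
  simp only [Nat.add_sub_cancel, show k + 2 - 1 = k + 1 from rfl,
    show v + (k + 2) - 1 = v + (k + 1) from rfl] at c1 c2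
  rcases hq with rfl | rfl
  · obtain rfl : k = 5 := by nlinarith
    refine ⟨rfl, by omega, by omega, ?_⟩
    rintro u ⟨z, hu⟩
    rw [S.ncard_F hu ht, hk]
  · exfalso
    have : (k + 1) * (6 * k) = (k + 1) * 50 := by nlinarith
    have := Nat.eq_of_mul_eq_mul_left (Nat.succ_pos k) this
    omega

section four

variable {S} (h : S.Two) (hq : q = 4) (hQ : Q = q) (hU : Uq S) (hv : Nat.card Ω = 91)
  (hD : S.D.ncard = 195) (hf : ∀ t ∈ S.D, (F Ω t).ncard = 7)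

include hq hQ hf in
theorem seven {η : G} (h7 : η ^ 7 = 1) {r : Ω} (hr : η • r = r) : η = 1 := by
  have L := S.loc r
  have hn := S.nm hr
  have hn' : ∀ i : ℕ, Nm (S.N r) (η ^ i) := fun i => S.nm (by
    induction i with
    | zero => simp
    | succ i ih => rw [pow_succ, mul_smul, hr, ih])
  have hc : Ce (S.N r) η := by
    refine L.ce_of_fix hn fun u hu => ?_
    by_contra hne
    have key : ∀ k : ℕ, 0 < k → k < 7 → ¬ Commute (η ^ k * u * (η ^ k)⁻¹) u := by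
      intro k k0 k7 e
      have e1 : η ^ k ∈ Subgroup.normalizer (ZZ (S.N r) u : Set G) :=
        (S.mem_norm_iff hu (by
          clear e k0 k7
          induction k with
          | zero => simp
          | succ i ih => rw [pow_succ, mul_smul, hr, ih])).2 e
      obtain ⟨j, hj⟩ : ∃ j : ℕ, (k * j) % 7 = 1 := by
        interval_cases k
        exacts [⟨1, rfl⟩, ⟨4, rfl⟩, ⟨5, rfl⟩, ⟨2, rfl⟩, ⟨3, rfl⟩, ⟨6, rfl⟩]
      have e2 := Subgroup.pow_mem _ e1 j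
      rw [← pow_mul, pow_eq_pow_mod _ h7, hj, pow_one] at e2
      exact hne ((S.mem_norm_iff hu hr).1 e2)
    have := L.card_le_of_nc (fun i : Fin 7 => η ^ (i : ℕ) * u * (η ^ (i : ℕ))⁻¹)
      (fun i => (hn' i).I hu) (fun i j e => by
        have aux : ∀ i j : Fin 7, (i : ℕ) < j →
            ¬ Commute (η ^ (i : ℕ) * u * (η ^ (i : ℕ))⁻¹) (η ^ (j : ℕ) * u * (η ^ (j : ℕ))⁻¹) := by
          intro i j hij e
          obtain ⟨d, hd⟩ := Nat.exists_eq_add_of_lt hij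
          refine key (d + 1) (by omega) (by omega) ?_
          rw [← commute_conj_iff (η ^ (i : ℕ))]
          convert e.symm using 1
          rw [hd, add_assoc, pow_add]; group
        rcases lt_trichotomy (i : ℕ) j with a | a | a
        exacts [absurd e (aux i j a), Fin.ext a, absurd e.symm (aux j i a)])
    simp at this
    omega
  obtain ⟨t, ht, -⟩ := L.nc
  refine S.ce_eq_one ht hc fun w hw => ?_
  by_cases e : w = r
  · rw [e, hr]
  refine fix_of_lt (p := 7) (by norm_num) h7 (X := F Ω t \ {r}) (Set.toFinite _)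
    (fun p hp => ⟨comm_fix (hc t ht.1) hp.1, fun e' => hp.2 (smul_left_cancel η (e'.trans hr.symm))⟩)
    ?_ ⟨hw, e⟩
  rw [Set.ncard_sdiff_singleton_of_mem (show r ∈ F Ω t from S.fixI ht), hf t ⟨_, ht⟩]
  norm_num

include hq hQ in
theorem pow_four {x : Ω} {s g : G} (hs : s ∈ I (S.N x)) (c : Commute g s)
    (e : ∀ w : Ω, s • w = w → g • w = w) : g ^ 4 = 1 := by
  have L := S.loc x
  have l2 := e x (S.fixI hs)
  obtain ⟨z, hz, e4⟩ := L.inn_of_ce hs ((S.nm l2).mul (S.nm l2))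
    (L.S_eq_Z hs hQ ▸ L.ce_sq_four hq hs (S.nm l2) c)
  refine S.ce_eq_one hs (fun m hm => ?_) fun w hw => by
    simp [pow_succ, mul_smul, e w hw]
  apply commute_of_conj_eq
  calc _ = g * g * (g * g * m * (g * g)⁻¹) * (g * g)⁻¹ := by simp [pow_succ, mul_assoc]
    _ = z * z * m * (z * z)⁻¹ := by rw [e4 m hm, e4 _ (Nm.of_mem (L.Z_le hs hz) m hm)]; group
    _ = m := by rw [L.Z_sq hs hz]; group

include hq in
omit [Finite Ω] in
theorem TT_eq {w : Ω} {t a b : G} (ht : t ∈ I (S.N w)) (ha : a ∈ S.TT t w) (hb : b ∈ S.TT t w) :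
    b = a ∨ b = a * t := by
  rcases mem_four (hq ▸ (S.loc w).cardZ ht) ((S.loc w).self_mem ht) ha.1 ht.2.1 ha.2.1 ha.2.2
    ht.2.2 hb.1 with e | e | e | e
  exacts [absurd e hb.2.1, absurd e hb.2.2, Or.inl e, Or.inr e]

include h hq in
theorem TT_inj {x w w' r : Ω} {t a b : G} (ht : t ∈ I (S.N x)) (hw : t • w = w)
    (hw' : t • w' = w') (hr : t • r = r) (ha : a ∈ S.TT t w) (hb : b ∈ S.TT t w')
    (e : a • r = b • r) : w = w' := by
  have ex : ∀ p : Ω, ∃ c, t • p = p → c ∈ S.TT t p := fun p => by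
    by_cases hp : t • p = p
    · obtain ⟨c, hc⟩ := S.exists_TT (S.closedI ht hp)
      exact ⟨c, fun _ => hc⟩
    · exact ⟨1, fun h' => absurd h' hp⟩
  choose c hc using ex
  have key : ∀ p : Ω, t • p = p → ∀ z ∈ S.TT t p, z • r = c p • r := fun p hp z hz => by
    rcases TT_eq hq (S.closedI ht hp) (hc p hp) hz with e1 | e1 <;> rw [e1]
    rw [mul_smul, hr]
  have hs : Set.SurjOn (fun p => c p • r) (F Ω t) (F Ω t) := fun y hy => by
    by_cases e1 : r = y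
    · subst e1
      exact ⟨r, hr, S.fixZ (S.closedI ht hr) (hc r hr).1⟩
    obtain ⟨p, hp, z, hz, z1, -⟩ := Two.mid S h (S.closedI ht hr) hy e1 (hc r hr) (hc y hy)
    exact ⟨p, hp, (key p hp z hz).symm.trans z1⟩
  have hi := (((Set.toFinite (F Ω t)).surjOn_iff_bijOn_of_mapsTo fun p hp =>
    comm_fix (S.TT_comm (S.closedI ht hp) (hc p hp)) hr).1 hs).injOn
  exact hi hw hw' (by simp only; rw [← key w hw a ha, ← key w' hw' b hb, e])

include h hq hf in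
theorem exists_seven (x : Ω) : ∃ η : G, η ≠ 1 ∧ η ^ 7 = 1 ∧ ∃ a ∈ S.D, a * η * a⁻¹ = η⁻¹ := by
  obtain ⟨y, hy⟩ := S.exists_ne x
  obtain ⟨t, ht, e⟩ := S.even x y hy.symm
  have hy' := S.closedI ht e
  obtain ⟨a, ha⟩ := S.exists_TT ht
  obtain ⟨c, hc⟩ := S.exists_TT hy'
  have a2 := (S.TT_I ht ha).2.2
  have c2 := (S.TT_I hy' hc).2.2
  have act := (S.TT_comm ht ha).mul_left (S.TT_comm hy' hc)
  have key : ∀ j : ℕ, ∀ r : Ω, t • r = r → (a * c) ^ j • r = r →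
      (a * c) ^ j = 1 ∨ (a * c) ^ j = t := fun j r hr e1 => by
    obtain ⟨w, hw, hz⟩ : ∃ w : Ω, t • w = w ∧ a * (a * c) ^ j ∈ S.TT t w := by
      obtain ⟨i, hi | hi⟩ := mul_pow_eq_conj a2 c2 j <;> rw [hi]
      · exact ⟨_, comm_fix (act.pow_left i).inv_left (S.fixI ht), by
          simpa using S.TT_conj ht (act.pow_left i).inv_left ha⟩
      · exact ⟨_, comm_fix (act.pow_left i).inv_left e, by
          simpa using S.TT_conj hy' (act.pow_left i).inv_left hc⟩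
    obtain rfl := TT_inj h hq ht (S.fixI ht) hw hr ha hz (by rw [mul_smul, e1])
    rcases TT_eq hq ht ha hz with e2 | e2
    · exact Or.inl (by simpa using e2)
    · exact Or.inr (mul_left_cancel e2)
  have odd7 : ∀ p : ℕ, p.Prime → p ≠ 7 → ¬ p ∣ (F Ω t).ncard := fun p hp h7 e1 => by
    rw [hf t ⟨_, ht⟩] at e1
    exact h7 ((Nat.prime_dvd_prime_iff_eq hp (by norm_num)).1 e1)
  have h7 : 7 ∣ orderOf (a * c) := by
    by_contra h7
    have h2 : ∀ p : ℕ, p.Prime → p ∣ orderOf (a * c) → p = 2 := fun p hp hd => by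
      by_contra hp2
      have : Fact p.Prime := ⟨hp⟩
      obtain ⟨k, hk⟩ := hd
      have k0 : 0 < k := Nat.pos_of_ne_zero (by
        rintro rfl; exact (orderOf_pos (a * c)).ne' hk)
      have e1 : ((a * c) ^ k) ^ p ^ 1 = 1 := by
        rw [pow_one, ← pow_mul, mul_comm, ← hk, pow_orderOf_eq_one]
      obtain ⟨r, hr, e2⟩ := exists_fixed_elt e1 (X := F Ω t) (Set.toFinite _)
        (fun p hp => comm_fix (act.pow_left k) hp)
        (odd7 p hp (by rintro rfl; exact h7 ⟨k, hk⟩))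
      have e3 : ((a * c) ^ k) ^ 2 = 1 := by
        rcases key k r hr e2 with e3 | e3 <;> rw [e3]
        exacts [one_pow _, by rw [sq, ht.2.2]]
      rw [← pow_mul] at e3
      have e4 := orderOf_dvd_of_pow_eq_one e3
      rw [hk, mul_comm k] at e4
      exact hp2 ((Nat.prime_dvd_prime_iff_eq hp Nat.prime_two).1 (Nat.dvd_of_mul_dvd_mul_right k0 e4))
    have e1 := Nat.eq_prime_pow_of_unique_prime_dvd (orderOf_pos (a * c)).ne' fun hp hd => h2 _ hp hd
    obtain ⟨r, hr, e2⟩ := exists_fixed_elt (p := 2) (g := a * c) (by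
      rw [← e1, pow_orderOf_eq_one]) (X := F Ω t) (Set.toFinite _)
        (fun p hp => comm_fix act hp) (odd7 2 Nat.prime_two (by norm_num))
    have e3 : c • x = x := by
      have e4 : c = a * (a * c) := by rw [← mul_assoc, a2, one_mul]
      rcases key 1 r hr (by rwa [pow_one]) with e3 | e3 <;> rw [pow_one] at e3 <;>
        rw [e4, e3, mul_smul]
      · rw [one_smul, S.fixZ ht ha.1]
      · rw [S.fixI ht, S.fixZ ht ha.1]
    exact hy (Two.uniq S h hy' hc (S.fixI ht) e3).symm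
  obtain ⟨k, hk⟩ := h7
  have k0 : 0 < k := Nat.pos_of_ne_zero (by rintro rfl; exact (orderOf_pos (a * c)).ne' hk)
  refine ⟨(a * c) ^ k, pow_ne_one_of_lt_orderOf k0.ne' (by omega), by
    rw [← pow_mul, mul_comm, ← hk, pow_orderOf_eq_one], a, ⟨_, S.TT_I ht ha⟩, ?_⟩
  rw [← conj_pow, ← inv_pow]
  congr 1
  rw [mul_inv_rev, inv_eq_of_mul_eq_one_right a2, inv_eq_of_mul_eq_one_right c2, ← mul_assoc, a2,
    one_mul]

include h hq hQ hU hv hD hf in
theorem absurd_four (x : Ω) : False := by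
  obtain ⟨η, η1, η7, a, ha, aη⟩ := exists_seven h hq hf x
  have ηp : ∀ p : Ω, p ≠ η • p := fun p e => η1 (seven hq hQ hf η7 e.symm)
  set E : Set G := {s | s ∈ S.D ∧ Commute η s} with hE
  have Eu : ∀ s ∈ E, ∀ s' ∈ E, ∀ p : Ω, s • p = p → s' • p = p → s = s' :=
    fun s hs s' hs' p e e' => hU s hs.1 s' hs'.1 p (η • p) (ηp p) e (comm_fix hs.2 e) e'
      (comm_fix hs'.2 e')
  have Ec : ∀ s ∈ E, ∀ s' ∈ E, Commute s s' → s = s' := by
    rintro s hs s' hs' e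
    by_contra hne
    obtain ⟨z, hz⟩ := hs.1
    obtain ⟨z', hz'⟩ := hs'.1
    obtain ⟨w, hw, e1⟩ := Two.perp S h hz' hz e hne
    exact hne (Eu s hs s' hs' w (S.fixZ (S.closedI hz' hw) e1.1) hw)
  have c1 : S.D.ncard ≡ E.ncard [MOD 7] := by
    have : Fact (Nat.Prime 7) := ⟨by norm_num⟩
    have := @ncard_modEq_elt G _ G (cjAct G) 7 _ η 1 (by simpa using η7) S.D (Set.toFinite _)
      fun u hu => D_conj S η hu
    convert this using 2
    ext s
    exact and_congr_right fun _ => ⟨conj_eq_of_commute, commute_of_conj_eq⟩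
  have c2 : E.ncard * 7 = {p : Ω | ∃ s ∈ E, s • p = p}.ncard * 1 := by
    refine double_count (Set.toFinite _) (Set.toFinite _) (fun s p => s • p = p)
      (fun s hs => ?_) fun p hp => ?_
    · rw [← hf s hs.1]
      congr 1; ext p
      exact ⟨fun e => e.2, fun e => ⟨⟨s, hs, e⟩, e⟩⟩
    · obtain ⟨s, hs, e⟩ := hp
      exact Set.ncard_eq_one.2 ⟨s, Set.eq_singleton_iff_unique_mem.2 ⟨⟨hs, e⟩,
        fun s' hs' => Eu s' hs'.1 s hs p hs'.2 e⟩⟩
  have c3 : {p : Ω | ∃ s ∈ E, s • p = p}.ncard ≤ 91 := by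
    rw [← hv, ← Set.ncard_univ]; exact Set.ncard_le_ncard (Set.subset_univ _) (Set.toFinite _)
  rw [hD, Nat.ModEq] at c1
  obtain ⟨t0, ht0⟩ : E.Nonempty := Set.nonempty_of_ncard_ne_zero (by omega)
  have Econj : ∀ g : G, Commute η g → ∀ s ∈ E, g * s * g⁻¹ ∈ E := fun g hg s hs =>
    ⟨D_conj S g hs.1, (hg.mul_right hs.2).mul_right hg.inv_right⟩
  have sq : ∀ s ∈ S.D, s * s = 1 := fun s ⟨_, hs⟩ => hs.2.2
  have c4 : E.ncard ≡ 1 [MOD 2] := by
    have := @ncard_modEq_elt G _ G (cjAct G) 2 _ t0 1 (by simpa [pow_two] using sq t0 ht0.1) E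
      (Set.toFinite _) fun u hu => Econj t0 ht0.2 u hu
    exact this.trans (congrArg (· % 2) (Set.ncard_eq_one.2 ⟨t0, Set.eq_singleton_iff_unique_mem.2
        ⟨⟨ht0, mul_inv_cancel_right t0 t0⟩,
          fun u hu => (Ec t0 ht0 u hu.1 (commute_of_conj_eq hu.2)).symm⟩⟩))
  rw [Nat.ModEq] at c4
  have c5 : E.ncard = 13 := by omega
  have cov : ∀ p : Ω, ∃ s ∈ E, s • p = p := fun p => by
    have : {p : Ω | ∃ s ∈ E, s • p = p} = Set.univ :=
      Set.eq_of_subset_of_ncard_le (Set.subset_univ _) (by rw [Set.ncard_univ]; omega)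
        (Set.toFinite _)
    exact (this ▸ Set.mem_univ p : p ∈ {p : Ω | ∃ s ∈ E, s • p = p})
  have nE : ∀ b : G, b * η * b⁻¹ = η⁻¹ → b ∉ E := fun b e hb => by
    rw [conj_eq_of_commute hb.2.symm] at e
    apply η1
    have e2 : η ^ 2 = 1 := by rw [pow_two]; nth_rw 1 [e]; simp
    calc η = η ^ 7 * ((η ^ 2) ^ 3)⁻¹ := by group
      _ = 1 := by rw [η7, e2]; simp
  have cB : ∀ b ∈ S.D, b * η * b⁻¹ = η⁻¹ → 7 ≤ {s ∈ E | Commute b s}.ncard := fun b hb e => by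
    choose σ hσ σ1 using cov
    rw [← hf b hb]
    refine Set.ncard_le_ncard_of_injOn σ (fun p hp => ⟨hσ p, ?_⟩) (fun p hp p' hp' e1 => ?_)
      (Set.toFinite _)
    · refine commute_of_conj_eq (Eu _ ⟨D_conj S b (hσ p).1, ?_⟩ _ (hσ p) p ?_ (σ1 p))
      · rw [← Commute.inv_left_iff, ← e, commute_conj_iff]; exact (hσ p).2
      · nth_rw 2 3 [← (show b • p = p from hp)]
        exact conj_fix.2 (σ1 p)
    · by_contra hne
      exact nE b e (hU _ (hσ p).1 b hb p p' hne (σ1 p) (e1 ▸ σ1 p') hp hp' ▸ hσ p)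
  have mulD : ∀ t ∈ E, Commute a t → a * t ∈ S.D ∧ a * t * η * (a * t)⁻¹ = η⁻¹ := by
    intro t ht e
    obtain ⟨z, hz⟩ := ht.1
    obtain ⟨z', hz'⟩ := ha
    obtain ⟨w, hw, e1⟩ := Two.perp S h hz hz' e (by rintro rfl; exact nE _ aη ht)
    have hI := S.closedI hz hw
    refine ⟨⟨w, S.TT_I hI (S.TT_mul hI e1)⟩, ?_⟩
    rw [← aη]
    calc _ = a * (t * η * t⁻¹) * a⁻¹ := by group
      _ = _ := by rw [conj_eq_of_commute ht.2.symm]
  have comp : ∀ t ∈ E, Commute a t → (∃ s ∈ E, ¬ Commute a s) ∧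
      ∀ s ∈ E, ¬ Commute a s → Commute (a * t) s := by
    intro t ht e
    have d1 := cB a ha aη
    have d2 := cB _ (mulD t ht e).1 (mulD t ht e).2
    have d3 : {s ∈ E | Commute (a * t) s} \ {t} ⊆ E \ {s ∈ E | Commute a s} := by
      rintro s ⟨⟨h1, h2⟩, h3⟩
      refine ⟨h1, fun h4 => h3 (Ec t ht s h1 ?_).symm⟩
      simpa using h4.2.inv_left.mul_left h2
    have d4 := Set.ncard_sdiff (show {s ∈ E | Commute a s} ⊆ E from fun s hs => hs.1)
      (Set.toFinite _)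
    have d5 := Set.ncard_sdiff_singleton_of_mem (show t ∈ {s ∈ E | Commute (a * t) s} from
      ⟨ht, e.mul_left (Commute.refl t)⟩)
    have d6 := Set.eq_of_subset_of_ncard_le d3 (by omega) (Set.toFinite _)
    refine ⟨?_, fun s hs e1 => ?_⟩
    · obtain ⟨s, hs⟩ : (E \ {s ∈ E | Commute a s}).Nonempty :=
        Set.nonempty_of_ncard_ne_zero (by rw [← d6]; omega)
      exact ⟨s, hs.1, fun e1 => hs.2 ⟨hs.1, e1⟩⟩
    · exact (d6 ▸ (⟨hs, fun e2 => e1 e2.2⟩ : s ∈ E \ {s ∈ E | Commute a s}) :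
        s ∈ {s ∈ E | Commute (a * t) s} \ {t}).1.2
  obtain ⟨t, ht, t', ht', hne⟩ := (Set.one_lt_ncard (s := {s ∈ E | Commute a s})
    (Set.toFinite _)).1 (by have := cB a ha aη; omega)
  obtain ⟨s, hs, e⟩ := (comp t ht.1 ht.2).1
  have g1 : Commute (t * t') s := by
    have := ((comp t ht.1 ht.2).2 s hs e).inv_left.mul_left ((comp t' ht'.1 ht'.2).2 s hs e)
    rwa [mul_inv_rev, mul_assoc, inv_mul_cancel_left,
      inv_eq_of_mul_eq_one_right (sq t ht.1.1)] at this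
  have g2 : Commute η (t * t') := ht.1.2.mul_right ht'.1.2
  have godd : Odd (orderOf (t * t')) := by
    by_contra hodd
    obtain ⟨j, h1, h2, -⟩ := dih_even (sq t ht.1.1) (sq t' ht'.1.1) hodd
    have h3 : t * (t * t') ^ j ∈ E := by
      obtain ⟨i, hi | hi⟩ := mul_pow_eq_conj (sq t ht.1.1) (sq t' ht'.1.1) j <;> rw [hi]
      · simpa using Econj _ (g2.pow_right i).inv_right t ht.1
      · simpa using Econj _ (g2.pow_right i).inv_right t' ht'.1
    exact h1.1 (by simpa using Ec t ht.1 _ h3 ((Commute.refl t).mul_right h2))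
  obtain ⟨p, hp⟩ := hs.1
  have orb : (fun g : G => g • p) '' Subgroup.zpowers η = F Ω s := by
    refine Set.eq_of_subset_of_ncard_le ?_ ?_ (Set.toFinite _)
    · rintro _ ⟨_, ⟨i, rfl⟩, rfl⟩
      exact comm_fix (hs.2.zpow_left i) (S.fixI hp)
    · have : Fact (Nat.Prime 7) := ⟨by norm_num⟩
      rw [ncard_orb, Nat.card_zpowers, orderOf_eq_prime η7 η1, hf s hs.1]
      rintro _ ⟨i, rfl⟩ e1
      refine seven hq hQ hf ?_ e1
      rw [← zpow_natCast, ← zpow_mul, mul_comm, zpow_mul, zpow_natCast, η7, one_zpow]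
  obtain ⟨_, ⟨i, rfl⟩, hi⟩ : (t * t') • p ∈ (fun g : G => g • p) '' Subgroup.zpowers η :=
    orb ▸ comm_fix g1 (S.fixI hp)
  have g3 : Commute (η ^ i)⁻¹ (t * t') := (g2.zpow_left i).inv_left
  have g4 := pow_four hq hQ hp (g := (η ^ i)⁻¹ * (t * t'))
    ((hs.2.zpow_left i).inv_left.mul_left g1) fun w hw => by
      obtain ⟨_, ⟨j, rfl⟩, rfl⟩ : w ∈ (fun g : G => g • p) '' Subgroup.zpowers η := orb ▸ hw
      refine comm_fix (((Commute.refl η).zpow_zpow j i).inv_right.mul_right (g2.zpow_left j)) ?_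
      rw [mul_smul, ← hi, inv_smul_smul]
  rw [g3.mul_pow, inv_pow, inv_mul_eq_one] at g4
  have g5 : Commute t ((t * t') ^ 4) := g4 ▸ ((ht.1.2.zpow_left i).pow_left 4).symm
  have g6 : t * (t * t') ^ 4 * t⁻¹ = ((t * t') ^ 4)⁻¹ := by
    rw [← conj_pow, ← inv_pow]
    congr 1
    rw [mul_inv_rev, inv_eq_of_mul_eq_one_right (sq t ht.1.1),
      inv_eq_of_mul_eq_one_right (sq t' ht'.1.1), ← mul_assoc, sq t ht.1.1, one_mul]
  rw [conj_eq_of_commute g5] at g6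
  have g7 := eq_one_of_odd_pow godd (k := 3) (by
    rw [show 2 ^ 3 = 4 + 4 from rfl, pow_add]; nth_rw 1 [g6]; simp)
  exact hne (by rw [eq_inv_of_mul_eq_one_left g7, inv_eq_of_mul_eq_one_right (sq t' ht'.1.1)])

end four

theorem not_m_one (h : S.Two) (hq : q = 4 ∨ q = 8) (hQ : Q = q) {x y : Ω} (hxy : x ≠ y) :
    (S.IK x y).ncard ≠ 1 := fun hm => by
  obtain ⟨h1, h2, h3, h4⟩ := params S h hq hQ hxy hm
  exact absurd_four h h1 hQ (uq_of S hxy hm) h2 h3 h4 x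

end Cfsg.Agent.BdR
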