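import Cfsg.Agent.Lib.Nine.Q

/-! Identification of `PSL(2,11)` from its action on twelve points. -/

set_option autoImplicit false
set_option linter.unusedSectionVars false

open Cfsg Cfsg.Agent.SL2 Cfsg.Agent.Nine
open scoped MatrixGroups

namespace Cfsg.Agent.BdR

universe u

variable {G : Type u} [Group G]

/-- discrete logarithm -/
def lg11 (a : ZMod 11) : ℕ := [0, 0, 0, 4, 1, 2, 4, 3, 1, 3, 2].getD a.val 0

/-- swap of zero and infinity -/
def sw11 (W : ZMod 11 → ZMod 11) : Option (ZMod 11) → Option (ZMod 11)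
  | none => some 0
  | some a => if a = 0 then none else some (W a)

theorem lg11_spec : ∀ a : ZMod 11, a ≠ 0 → a = 4 ^ lg11 a * if a ^ 5 = 1 then 1 else 2 := by decide +kernel

theorem brute11 : ∀ u c d : ZMod 11, u ^ 5 = 1 →
    let W : ZMod 11 → ZMod 11 := fun a => u ^ lg11 a * if a ^ 5 = 1 then c else d
    let F : ZMod 11 → Option (ZMod 11) := fun a => sw11 W ((sw11 W ((sw11 W (some a)).map (1 + ·))).map (-c + ·))
    sw11 W (sw11 W (some 4)) = (sw11 W (sw11 W (some 1))).map (4 * ·) →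
    ((F 1).getD 0 - (F 0).getD 0) ^ 5 = 1 →
    (∀ a, F a = some ((F 0).getD 0 + ((F 1).getD 0 - (F 0).getD 0) * a)) →
    (-c ^ 9) ^ 5 = 1 ∧ ∀ a, a ≠ 0 → -c ^ 9 * W a = -a ^ 9 := by decide +kernel

theorem rel11 : ∀ b : ZMod 11, b ≠ 0 → ∀ p, sw11 (fun a => -a ^ 9) ((sw11 (fun a => -a ^ 9) p).map (b + ·)) =
    ((sw11 (fun a => -a ^ 9) (p.map (-b ^ 9 + ·))).map ((b ^ 9) ^ 2 * ·)).map (-b ^ 9 + ·) := by decide +kernel

theorem rel11' : ∀ b : ZMod 11, b ≠ 0 → ∀ p, sw11 (fun a => -a ^ 9) ((sw11 (fun a => -a ^ 9) p).map (b ^ 2 * ·)) =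
    p.map ((b ^ 9) ^ 2 * ·) := by decide +kernel

instance fact11 : Fact (Nat.Prime 11) := ⟨by norm_num⟩

theorem inv11 {b : ZMod 11} (hb : b ≠ 0) : b⁻¹ = b ^ 9 :=
  inv_eq_of_mul_eq_one_right ((by decide +kernel : ∀ b : ZMod 11, b ≠ 0 → b * b ^ 9 = 1) b hb)

theorem psl11_of_perm [Finite G] (hc : Nat.card G = 660) (σ : G →* Equiv.Perm (Option (ZMod 11)))
    (hσ : Function.Injective σ) (x : ZMod 11 → G) (hx : ∀ b p, σ (x b) p = p.map (b + ·))
    (h1 : ∀ g, σ g none = none → σ g (some 0) = some 0 → ∃ μ, μ ^ 5 = 1 ∧ ∀ a, σ g (some a) = some (μ * a))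
    (h2 : ∀ μ : ZMod 11, μ ^ 5 = 1 → ∃ g, ∀ p, σ g p = p.map (μ * ·)) (h3 : ∃ g, σ g none = some 0) :
    Nonempty (G ≃* PSL(2, ZMod 11)) := by
  have ext : ∀ g k : G, (∀ p, σ g p = σ k p) → g = k := fun g k h => hσ (Equiv.ext h)
  have h4 : ∀ g, σ g none = none → ∃ c μ, μ ^ 5 = 1 ∧ ∀ a, σ g (some a) = some (c + μ * a) := fun g hg => by
    obtain ⟨c, hc⟩ := Option.ne_none_iff_exists'.1 (show σ g (some 0) ≠ none from fun e =>
      Option.some_ne_none _ ((σ g).injective (e.trans hg.symm)))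
    obtain ⟨μ, e1, e2⟩ := h1 (x (-c) * g) (by simp [hx, hg]) (by simp [hx, hc])
    refine ⟨c, μ, e1, fun a => ?_⟩
    have := congrArg (σ (x c)) (e2 a)
    rw [map_mul, Equiv.Perm.mul_apply, hx, hx, hx] at this
    simpa [Function.comp_def] using this
  obtain ⟨w, w1, w2⟩ : ∃ w, σ w none = some 0 ∧ σ w (some 0) = none := by
    obtain ⟨g, hg⟩ := h3
    obtain ⟨c, hc⟩ := Option.ne_none_iff_exists'.1 (show (σ g)⁻¹ none ≠ none from fun e => by
      rw [Equiv.Perm.inv_eq_iff_eq, hg] at e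
      exact Option.some_ne_none _ e.symm)
    exact ⟨g * x c, by simp [hx, hg], by simp [hx, ← hc]⟩
  let W : ZMod 11 → ZMod 11 := fun a => (σ w (some a)).getD 0
  have w3 : ∀ p, σ w p = sw11 W p := by
    rintro (_ | a)
    · exact w1
    by_cases e : a = 0
    · simp [sw11, e, w2]
    obtain ⟨c, hc⟩ := Option.ne_none_iff_exists'.1 (show σ w (some a) ≠ none from fun e' =>
      e (Option.some.inj ((σ w).injective (e'.trans w2.symm))))
    simp [sw11, e, W, hc]
  obtain ⟨g, hg⟩ := h2 4 (by decide)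
  obtain ⟨u, u1, u2⟩ := h1 (w * g * w⁻¹) (by
      rw [map_mul, map_mul, map_inv, Equiv.Perm.mul_apply, Equiv.Perm.mul_apply, Equiv.Perm.inv_eq_iff_eq.2 w2.symm]
      simp [hg, w2]) (by
      rw [map_mul, map_mul, map_inv, Equiv.Perm.mul_apply, Equiv.Perm.mul_apply, Equiv.Perm.inv_eq_iff_eq.2 w1.symm]
      simp [hg, w1])
  have w4 : ∀ a, a ≠ 0 → W (4 * a) = u * W a := fun a ha => by
    have := u2 (W a)
    rw [show some (W a) = σ w (some a) by simp [w3, sw11, ha]] at this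
    simp only [map_mul, map_inv, Equiv.Perm.mul_apply, Equiv.Perm.coe_inv, Equiv.symm_apply_apply, hg, Option.map_some] at this
    simp only [W, this, Option.getD_some]
  have w5 : ∀ (i : ℕ) a, a ≠ 0 → W (4 ^ i * a) = u ^ i * W a := fun i a ha => by
    induction i with
    | zero => simp
    | succ i ih =>
      rw [pow_succ', mul_assoc, w4 _ (mul_ne_zero (pow_ne_zero _ (by decide)) ha), ih, pow_succ', mul_assoc]
  have w6 : sw11 W = sw11 fun a => u ^ lg11 a * if a ^ 5 = 1 then W 1 else W 2 := by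
    funext p
    rcases p with _ | a
    · rfl
    simp only [sw11]
    split_ifs with e1 e2
    · rfl
    · have := lg11_spec a e1
      rw [if_pos e2] at this
      rw [← w5 _ _ one_ne_zero, ← this]
    · have := lg11_spec a e1
      rw [if_neg e2] at this
      rw [← w5 _ _ (by decide), ← this]
  obtain ⟨c, μ, e1, e2⟩ := h4 (w * x (-W 1) * w * x 1 * w) (by simp [hx, w3, sw11])
  simp only [map_mul, Equiv.Perm.mul_apply, hx, w3, w6] at e2
  obtain ⟨ν, -, e0⟩ := h1 (w * w) (by simp [w1, w2]) (by simp [w1, w2])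
  simp only [map_mul, Equiv.Perm.mul_apply, w3, w6] at e0
  obtain ⟨e3, e4⟩ := brute11 u (W 1) (W 2) u1 (by simp only [e0]; simp [mul_comm]) (by simp only [e2]; simpa using e1) (by simp only [e2]; simp)
  obtain ⟨n, hn⟩ := h2 _ e3
  have w7 : ∀ p, σ (n * w) p = sw11 (fun a => -a ^ 9) p := by
    rintro (_ | a)
    · simp [hn, w1, sw11]
    rw [map_mul, Equiv.Perm.mul_apply, hn, w3, w6]
    simp only [sw11]
    split_ifs with e
    · rfl
    all_goals
      have := e4 a e
      simp only [*, if_true, if_false] at this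
      rw [Option.map_some, this]
  choose h hh using fun t : (ZMod 11)ˣ => h2 ((t : ZMod 11) ^ 2) (by
    rw [← pow_mul]; exact ZMod.pow_card_sub_one_eq_one t.ne_zero)
  have hww : n * w * (n * w) = 1 := ext _ _ fun p => by
    have := rel11' 1 one_ne_zero p
    rw [map_mul, Equiv.Perm.mul_apply, w7, w7]
    simpa using this
  have hm1 : h (-1) = 1 := ext _ _ fun p => by simp [hh]
  let D : RankOne (ZMod 11) G :=
    { x := x
      h := MonoidHom.mk' h fun s t => ext _ _ fun p => by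
        simp [hh, Function.comp_def, mul_pow, mul_assoc]
      w := n * w
      x_add := fun a b => ext _ _ fun p => by simp [hx, Function.comp_def, add_assoc]
      h_x := fun t a => mul_inv_eq_iff_eq_mul.2 (ext _ _ fun p => by
        simp [hx, hh, Function.comp_def, mul_add])
      w_h := fun t => ext _ _ fun p => by
        rw [inv_eq_of_mul_eq_one_left hww]
        simp only [map_mul _ (_ * _), map_mul _ (n * w), Equiv.Perm.mul_apply, w7, MonoidHom.mk'_apply, hh,
          Units.val_inv_eq_inv_val, inv11 t.ne_zero]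
        exact rel11' _ t.ne_zero p
      w_w := hww.trans hm1.symm
      w_x := fun t => ext _ _ fun p => by
        rw [inv_eq_of_mul_eq_one_left hww]
        simp only [map_mul _ (_ * _), map_mul _ (n * w), map_mul _ (x _), Equiv.Perm.mul_apply, w7,
          MonoidHom.mk'_apply, hh, hx, Units.val_inv_eq_inv_val, inv11 t.ne_zero]
        exact rel11 _ t.ne_zero p }
  obtain ⟨ρ, r1, r2, r3⟩ := AIC.exists_hom_SL D
  have h5 : ∀ g, σ g none = none → g ∈ ρ.range := fun g hg => by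
    obtain ⟨c, μ, e1, e2⟩ := h4 g hg
    obtain ⟨t, t0, rfl⟩ := (by decide +kernel : ∀ μ : ZMod 11, μ ^ 5 = 1 → ∃ t, t ≠ 0 ∧ μ = t ^ 2) μ e1
    refine ⟨up c * SL2.dg (Units.mk0 t t0), ?_⟩
    rw [map_mul, r1, r2]
    refine ext _ _ ?_
    rintro (_ | a) <;> simp [D, hx, hh, hg, e2]
  have h6 : Function.Surjective ρ := fun g => by
    rcases e : σ g none with _ | c
    · exact h5 g e
    have := h5 (n * w * x (-c) * g) (by
      rw [map_mul, map_mul, Equiv.Perm.mul_apply, Equiv.Perm.mul_apply, w7, e, hx]; simp [sw11])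
    rwa [mul_mem_cancel_left (mul_mem (show n * w ∈ ρ.range from ⟨_, r3⟩)
      (show x (-c) ∈ ρ.range from ⟨_, r1 _⟩))] at this
  let f : PSL(2, ZMod 11) →* G := QuotientGroup.lift _ ρ fun g hg => by
    rcases pr_eq_one_iff'.1 ((QuotientGroup.eq_one_iff g).2 hg) with rfl | rfl
    · exact one_mem _
    · rw [MonoidHom.mem_ker, ← hm1]
      refine Eq.trans (congrArg ρ ?_) (r2 (-1))
      apply SL_ext
      apply mat_ext <;> simp
  have h7 := card_PSL_odd (F := ZMod 11) (by decide)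
  rw [Nat.card_zmod] at h7
  exact ⟨(MulEquiv.ofBijective f ((Nat.bijective_iff_surjective_and_card f).2
    ⟨fun g => by obtain ⟨a, rfl⟩ := h6 g; exact ⟨pr a, rfl⟩, by omega⟩)).symm⟩

theorem psl11_of_perm' [Finite G] (hc : Nat.card G = 660) (σ : G →* Equiv.Perm (Option (ZMod 11)))
    (hσ : Function.Injective σ) (x : ZMod 11 → G) (hx : ∀ b p, σ (x b) p = p.map (b + ·))
    (h1 : ∀ g, σ g none = none → σ g (some 0) = some 0 → ∃ μ, ∀ a, σ g (some a) = some (μ * a))
    (h3 : ∀ p, ∃ g, σ g none = p) : Nonempty (G ≃* PSL(2, ZMod 11)) := by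
  let H : Subgroup G := (MulAction.stabilizer _ (none : Option (ZMod 11)) ⊓
    MulAction.stabilizer _ (some (0 : ZMod 11))).comap σ
  have hH : ∀ g, g ∈ H ↔ σ g none = none ∧ σ g (some 0) = some 0 := fun g => Iff.rfl
  choose r hr using h3
  have h4 : Nat.card H = 5 := by
    have := Nat.card_eq_of_bijective (fun p : Option (ZMod 11) × ZMod 11 × H => r p.1 * x p.2.1 * p.2.2) ⟨?_, ?_⟩
    · rw [Nat.card_prod, Nat.card_prod, Finite.card_option, Nat.card_zmod, hc] at this
      omega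
    · rintro ⟨p, a, g, g1, g2⟩ ⟨q, b, k, k1, k2⟩ e
      replace g1 : σ g none = none := g1
      replace g2 : σ g (some 0) = some 0 := g2
      replace k1 : σ k none = none := k1
      replace k2 : σ k (some 0) = some 0 := k2
      obtain rfl : p = q := by simpa [g1, k1, hx, hr] using congrArg (σ · none) e
      obtain rfl : a = b := by simpa [g2, k2, hx] using congrArg (σ · (some 0)) e
      obtain rfl : g = k := by simpa using e
      rfl
    · intro g
      have e1 : σ ((r (σ g none))⁻¹ * g) none = none := by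
        rw [map_mul, map_inv, Equiv.Perm.mul_apply, Equiv.Perm.inv_eq_iff_eq, hr]
      obtain ⟨c, hc⟩ := Option.ne_none_iff_exists'.1 (show σ ((r (σ g none))⁻¹ * g) (some 0) ≠ none from fun e =>
        Option.some_ne_none _ ((σ _).injective (e.trans e1.symm)))
      refine ⟨⟨σ g none, c, (x c)⁻¹ * ((r (σ g none))⁻¹ * g), (hH _).2 ⟨?_, ?_⟩⟩, by simp⟩ <;>
        rw [map_mul, map_inv, Equiv.Perm.mul_apply, Equiv.Perm.inv_eq_iff_eq, hx]
      · exact e1
      · simpa using hc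
  choose μ hμ using fun g : H => h1 g g.2.1 g.2.2
  have h5 : ∀ g, μ g ^ 5 = 1 := fun g => by
    have e : ∀ i : ℕ, σ (g ^ i) (some 1) = some (μ g ^ i) := fun i => by
      induction i with
      | zero => simp
      | succ i ih => rw [pow_succ', map_mul, Equiv.Perm.mul_apply, ih, hμ, pow_succ']
    have e1 : (g : G) ^ 5 = 1 := congrArg Subtype.val (h4 ▸ pow_card_eq_one' (x := g))
    simpa [e1, eq_comm] using e 5
  have h6 : Function.Bijective fun g : H => (⟨μ g, h5 g⟩ : {u : ZMod 11 // u ^ 5 = 1}) := by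
    rw [Nat.bijective_iff_injective_and_card, h4, Nat.card_eq_fintype_card]
    refine ⟨fun g k e => Subtype.ext (hσ (Equiv.ext ?_)), by decide +kernel⟩
    rintro (_ | a)
    · exact g.2.1.trans k.2.1.symm
    · rw [hμ, hμ, Subtype.mk.inj e]
  refine psl11_of_perm hc σ hσ x hx (fun g g1 g2 => ⟨_, h5 ⟨g, g1, g2⟩, hμ ⟨g, g1, g2⟩⟩) (fun u hu => ?_) ⟨_, hr _⟩
  obtain ⟨g, hg⟩ := h6.2 ⟨u, hu⟩
  refine ⟨g, ?_⟩
  rintro (_ | a)
  · exact g.2.1
  · rw [hμ, Subtype.mk.inj hg]; rfl

theorem psl11 [Finite G] (hc : Nat.card G = 660) (hn : Nat.card (Sylow 11 G) = 12)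
    (hf : ∀ g : G, (∀ P : Sylow 11 G, g • P = P) → g = 1) :
    Nonempty (G ≃* PSL(2, ZMod 11)) := by
  obtain ⟨Q⟩ : Nonempty (Sylow 11 G) := inferInstance
  have hcard : ∀ P : Sylow 11 G, Nat.card P = 11 := fun P => (sylow_card (m := 60) (b := 1) hc (by norm_num) P).1
  have hz : ∀ g ∈ (Q : Subgroup G), g ≠ 1 → orderOf g = 11 ∧ Subgroup.zpowers g = Q := fun g h1 h2 => by
    have := (fact11.out.eq_one_or_self_of_dvd (orderOf g)
      (hcard Q ▸ Subgroup.orderOf_dvd_natCard _ h1)).resolve_left (by simpa using h2)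
    exact ⟨this, Subgroup.eq_of_le_of_card_ge (Subgroup.zpowers_le.2 h1) (by rw [hcard, Nat.card_zpowers, this])⟩
  have hfix : ∀ g ∈ (Q : Subgroup G), g ≠ 1 → ∀ P : Sylow 11 G, g • P = P → P = Q := fun g h1 h2 P h3 => by
    have h4 := Q.2.inf_normalizer_sylow P
    rw [inf_eq_left.2 ((hz g h1 h2).2 ▸ Subgroup.zpowers_le.2 (Sylow.smul_eq_iff_mem_normalizer.1 h3)),
      left_eq_inf] at h4
    exact (Sylow.ext (Subgroup.eq_of_le_of_card_ge h4 (by rw [hcard, hcard]))).symm
  obtain ⟨⟨y, hy⟩, hy1⟩ : ∃ y : Q, y ≠ 1 := by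
    have : Nontrivial Q := Finite.one_lt_card_iff_nontrivial.1 (by rw [hcard]; norm_num)
    exact exists_ne 1
  obtain ⟨y1, y2⟩ := hz y hy fun e => hy1 (Subtype.ext e)
  let x : ZMod 11 → G := fun a => y ^ a.val
  have x1 : ∀ n : ℕ, x n = y ^ n := fun n => by
    simp only [x, ZMod.val_natCast]
    rw [← y1, pow_mod_orderOf]
  have x2 : ∀ a b, x (a + b) = x a * x b := fun a b => by
    rw [← pow_add, ← x1]; simp
  have x3 : ∀ a, x a ∈ (Q : Subgroup G) := fun a => pow_mem hy _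
  have x4 : ∀ a, x a • Q = Q := fun a => Sylow.smul_eq_iff_mem_normalizer.2 (Subgroup.le_normalizer (x3 a))
  obtain ⟨P, hP⟩ : ∃ P : Sylow 11 G, P ≠ Q := by
    have : Nontrivial (Sylow 11 G) := Finite.one_lt_card_iff_nontrivial.1 (by rw [hn]; norm_num)
    exact exists_ne Q
  let e : Option (ZMod 11) → Sylow 11 G := fun p => p.elim Q fun a => x a • P
  have he : Function.Bijective e := by
    rw [Nat.bijective_iff_injective_and_card, Finite.card_option, Nat.card_zmod, hn]
    have k : ∀ a, x a • P ≠ Q := fun a h => hP (smul_left_cancel (x a) (h.trans (x4 a).symm))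
    refine ⟨?_, rfl⟩
    rintro (_ | a) (_ | b) h
    · rfl
    · exact absurd h.symm (k b)
    · exact absurd h (k a)
    by_contra h1
    refine hP (hfix _ (x3 (a - b)) (fun h2 => h1 ?_) P (smul_left_cancel (x b) ?_))
    · have := orderOf_dvd_of_pow_eq_one h2
      rw [y1, ← ZMod.natCast_eq_zero_iff, ZMod.natCast_zmod_val, sub_eq_zero] at this
      rw [this]
    · rw [← mul_smul, ← x2, add_sub_cancel]
      exact h
  let E := Equiv.ofBijective e he
  let σ : G →* Equiv.Perm (Option (ZMod 11)) := E.symm.permCongrHom.toMonoidHom.comp (MulAction.toPermHom G _)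
  have hs : ∀ g p q, σ g p = q ↔ g • e p = e q := fun g p q => E.symm_apply_eq
  have x0 : x 0 = 1 := pow_zero y
  refine psl11_of_perm' hc σ ?_ x (fun b p => (hs _ _ _).2 ?_) (fun g g1 g2 => ?_) fun p => ?_
  · refine (injective_iff_map_eq_one σ).2 fun g hg => hf g fun R => ?_
    obtain ⟨p, rfl⟩ := he.2 R
    exact (hs g p p).1 (by rw [hg]; rfl)
  · rcases p with _ | a
    · exact x4 b
    · simp only [e, Option.elim, Option.map, x2, mul_smul]
  · rw [hs] at g1 g2
    simp only [e, Option.elim, x0, one_smul] at g1 g2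
    have h1 := nz_of_mem (Sylow.smul_eq_iff_mem_normalizer.1 g1) y hy
    rw [← y2, ← mem_powers_iff_mem_zpowers] at h1
    obtain ⟨n, hn⟩ := h1
    refine ⟨n, fun a => (hs _ _ _).2 ?_⟩
    have h2 : x (n * a) = g * x a * g⁻¹ := by
      rw [← conj_pow, ← hn, ← pow_mul, ← x1]; simp
    simp only [e, Option.elim, h2, mul_smul, inv_smul_eq_iff.2 g2.symm]
  · obtain ⟨g, hg⟩ := MulAction.exists_smul_eq G Q (e p)
    exact ⟨g, (hs _ _ _).2 hg⟩

theorem rec11 {Ω : Type*} [MulAction G Ω] [Finite G] [Finite Ω]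
    (two : ∀ x y x' y' : Ω, x ≠ y → x' ≠ y' → ∃ g : G, g • x = x' ∧ g • y = y')
    (faith : ∀ g : G, (∀ x : Ω, g • x = x) → g = 1) (hΩ : Nat.card Ω = 11) (hG : Nat.card G = 660) :
    Nonempty (G ≃* Matrix.ProjectiveSpecialLinearGroup (Fin 2) (ZMod 11)) ∨
      ∃ R : Subgroup G, R.Normal ∧ (∀ x y : Ω, ∃ r ∈ R, r • x = y) ∧ ∀ x : Ω, ∀ r ∈ R, r • x = x → r = 1 := by
  haveI : Nontrivial Ω := Finite.one_lt_card_iff_nontrivial.1 (by rw [hΩ]; norm_num)
  have tr : ∀ N : Subgroup G, N.Normal → N ≠ ⊥ → ∀ x y : Ω, ∃ r ∈ N, r • x = y := fun N hN h x y => by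
    by_cases e : x = y
    · exact ⟨1, one_mem _, by rw [one_smul, e]⟩
    obtain ⟨⟨n, hn⟩, h1⟩ := Subgroup.ne_bot_iff_exists_ne_one.1 h
    obtain ⟨a, ha⟩ : ∃ a : Ω, a ≠ n • a := by
      by_contra h2
      push Not at h2
      exact h1 (Subtype.ext (faith n fun a => (h2 a).symm))
    obtain ⟨g, rfl, rfl⟩ := two a (n • a) x y ha e
    exact ⟨g * n * g⁻¹, hN.conj_mem n hn g, by rw [mul_smul, mul_smul, inv_smul_smul]⟩
  have cd : ∀ N : Subgroup G, (∀ x y : Ω, ∃ r ∈ N, r • x = y) → ∀ x : Ω,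
      11 * Nat.card (MulAction.stabilizer N x) = Nat.card N := fun N h x => by
    haveI : MulAction.IsPretransitive N Ω := ⟨fun a b => let ⟨r, h1, h2⟩ := h a b; ⟨⟨r, h1⟩, h2⟩⟩
    rw [← hΩ, ← MulAction.index_stabilizer_of_transitive N x, Subgroup.index_mul_card]
  obtain ⟨P⟩ : Nonempty (Sylow 11 G) := inferInstance
  have hcard : ∀ P : Sylow 11 G, Nat.card P = 11 := fun P => (sylow_card (m := 60) (b := 1) hG (by norm_num) P).1
  have h1 := P.card_dvd_index
  rw [(sylow_card (m := 60) (b := 1) hG (by norm_num) P).2] at h1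
  have h2 : Nat.card (Sylow 11 G) % 11 = 1 := card_sylow_modEq_one 11 G
  have h3 : Nat.card (Sylow 11 G) = 1 ∨ Nat.card (Sylow 11 G) = 12 := by
    have := Nat.le_of_dvd (by norm_num) h1
    generalize Nat.card (Sylow 11 G) = n at *
    interval_cases n <;> omega
  rcases h3 with h3 | h3
  · have := (Nat.card_eq_one_iff_unique.1 h3).1
    have h4 := tr P P.normal_of_subsingleton fun e => by simpa [e] using hcard P
    refine Or.inr ⟨P, P.normal_of_subsingleton, h4, fun x r hr e => ?_⟩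
    have h5 := cd P h4 x
    rw [hcard] at h5
    have h6 : (⟨r, hr⟩ : P) ∈ MulAction.stabilizer P x := e
    rw [Subgroup.card_eq_one.1 (show Nat.card (MulAction.stabilizer P x) = 1 by omega)] at h6
    exact congrArg Subtype.val (Subgroup.mem_bot.1 h6)
  refine Or.inl (psl11 hG h3 fun g hg => by_contra fun h => ?_)
  obtain ⟨x⟩ : Nonempty Ω := inferInstance
  let K := (MulAction.toPermHom G (Sylow 11 G)).ker
  have h4 := cd K (tr K inferInstance fun e => h (Subgroup.mem_bot.1 (e ▸ (Equiv.ext hg : g ∈ K)))) x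
  obtain ⟨⟨y, hy⟩, y1⟩ := exists_prime_orderOf_dvd_card' (G := K) 11 (Dvd.intro _ h4)
  rw [← Subgroup.orderOf_coe] at y1
  have h5 : ∀ R : Sylow 11 G, Subgroup.zpowers y = R := fun R => by
    have h6 : IsPGroup 11 (Subgroup.zpowers y) := IsPGroup.of_card (n := 1) (by rw [Nat.card_zpowers, y1]; rfl)
    have h7 := h6.inf_normalizer_sylow R
    rw [inf_eq_left.2 (Subgroup.zpowers_le.2 (Sylow.smul_eq_iff_mem_normalizer.1
      (Equiv.ext_iff.1 (MonoidHom.mem_ker.1 hy) R))), left_eq_inf] at h7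
    exact Subgroup.eq_of_le_of_card_ge h7 (by rw [hcard, Nat.card_zpowers, y1])
  have : Subsingleton (Sylow 11 G) := ⟨fun a b => Sylow.ext ((h5 a).symm.trans (h5 b))⟩
  have := Finite.card_le_one_iff_subsingleton.2 this
  omega

theorem rec6 {Ω : Type*} [MulAction G Ω] [Finite G] [Finite Ω]
    (faith : ∀ g : G, (∀ x : Ω, g • x = x) → g = 1) (hΩ : Nat.card Ω = 6) (h : 360 ≤ Nat.card G) :
    Nonempty (G ≃* alternatingGroup (Fin 6)) ∨ Nonempty (G ≃* Equiv.Perm (Fin 6)) := by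
  let e : Ω ≃ Fin 6 := Finite.equivFinOfCardEq hΩ
  let σ : G →* Equiv.Perm (Fin 6) := e.permCongrHom.toMonoidHom.comp (MulAction.toPermHom G Ω)
  have hσ : Function.Injective σ := e.permCongrHom.injective.comp
    ((injective_iff_map_eq_one _).2 fun g hg => faith g (Equiv.ext_iff.1 hg))
  have f := MonoidHom.ofInjective hσ
  have h1 := σ.range.card_mul_index
  rw [← Nat.card_congr f.toEquiv, Nat.card_perm, Nat.card_eq_fintype_card (α := Fin 6), Fintype.card_fin,
    show Nat.factorial 6 = 720 from rfl] at h1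
  have h2 : σ.range.index = 1 ∨ σ.range.index = 2 := by
    have : σ.range.index ≠ 0 := Subgroup.index_ne_zero_of_finite
    have : σ.range.index < 3 := by nlinarith
    omega
  rcases h2 with h2 | h2
  · exact Or.inr ⟨f.trans ((MulEquiv.subgroupCongr (Subgroup.index_eq_one.1 h2)).trans Subgroup.topEquiv)⟩
  · exact Or.inl ⟨f.trans (MulEquiv.subgroupCongr (Equiv.Perm.eq_alternatingGroup_of_index_eq_two h2))⟩

end Cfsg.Agent.BdR
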